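import Cfsg.Agent.L52C.InvC

set_option autoImplicit false
set_option Elab.async false
set_option maxRecDepth 100000
set_option linter.all false

namespace Cfsg.Agent.L52C
open Cfsg.Agent.CGT

open Cfsg.Agent.Inv

theorem cert (s : Matrix.SpecialLinearGroup (Fin 5) (ZMod 2))
    (hs : (s : Matrix (Fin 5) (Fin 5) (ZMod 2)) = Matrix.transvection 0 1 1) :
    ∃ (δ : ℕ → Subgroup.centralizer {s}) (φ : _), Cert φ δ 5 y_ns y_ts [0, 2, 4, 6, 8, 10, 12] cc_ls := by
  obtain ⟨φ, C⟩ := l_cert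
  obtain ⟨-, δ, -, C2⟩ := cent_cert (x_cert C)
  obtain rfl : s = ev (ext (wg (fun j => l_gs.getD j 1) x_W)) [2] := by
    rw [ev_singleton, ext_two_mul _ 1]
    refine Eq.trans ?_ (ev_singleton (ext fun j => l_gs.getD j 1) 0).symm
    exact Subtype.ext hs
  exact ⟨δ, _, C2⟩

end Cfsg.Agent.L52C
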